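import Cfsg.Agent.L1.AuQ2
set_option autoImplicit false
set_option maxRecDepth 100000

namespace Cfsg.Agent.L1AQ
open Cfsg.Agent.H15 Cfsg.Agent.H14 Subgroup N22I

section gen
variable {G : Type*} [Group G]

local notation "ι" => (MulAut.conj : G →* MulAut G)

namespace Dat
variable {y d : G} {E : Subgroup G} {q : MulAut G} (h : Dat y d E q)
include h

/-- the extension of an invariant subgroup -/
def ext (S : Subgroup G) (hS : ∀ u ∈ S, q u ∈ S) : Subgroup (MulAut G) where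
  carrier := {a | ∃ e ∈ S, a = ι e ∨ a = ι e * q}
  one_mem' := ⟨1, one_mem _, Or.inl (map_one _).symm⟩
  mul_mem' := by
    rintro _ _ ⟨a, ha, rfl | rfl⟩ ⟨b, hb, rfl | rfl⟩
    · exact ⟨_, mul_mem ha hb, Or.inl (mul_ii a b)⟩
    · exact ⟨_, mul_mem ha hb, Or.inr (mul_iq a b)⟩
    · exact ⟨_, mul_mem ha (hS _ hb), Or.inr (mul_qi a b)⟩
    · exact ⟨_, mul_mem ha (hS _ hb), Or.inl (h.mul_qq a b)⟩
  inv_mem' := by
    rintro _ ⟨a, ha, rfl | rfl⟩
    · exact ⟨_, inv_mem ha, Or.inl (map_inv _ _).symm⟩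
    · exact ⟨_, hS _ (inv_mem ha), Or.inr (h.inv_q a)⟩

theorem card_ext [Finite G] (S : Subgroup G) (hS : ∀ u ∈ S, q u ∈ S) : Nat.card (h.ext S hS) = 2 * Nat.card S := by
  let f : S ⊕ S → h.ext S hS := Sum.elim (fun e => ⟨ι e, e, e.2, Or.inl rfl⟩) fun e => ⟨ι e * q, e, e.2, Or.inr rfl⟩
  have hf : Function.Bijective f := by
    constructor
    · rintro (a | a) (b | b) k <;> have k' := congrArg Subtype.val k <;> simp only [f, Sum.elim_inl, Sum.elim_inr] at k'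
      · rw [Subtype.ext (h.inj k')]
      · exact absurd (by rw [map_mul, map_inv, k', inv_mul_cancel_left]) (h.out ((b : G)⁻¹ * a))
      · exact absurd (by rw [map_mul, map_inv, ← k', inv_mul_cancel_left]) (h.out ((a : G)⁻¹ * b))
      · rw [Subtype.ext (h.inj (mul_right_cancel k'))]
    · rintro ⟨_, e, he, rfl | rfl⟩
      exacts [⟨.inl ⟨e, he⟩, rfl⟩, ⟨.inr ⟨e, he⟩, rfl⟩]
  rw [← Nat.card_congr (Equiv.ofBijective f hf), Nat.card_sum, two_mul]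

theorem cardA [Finite G] : Nat.card (MulAut G) = 2 * Nat.card G := by
  have : h.ext ⊤ (fun _ _ => mem_top _) = ⊤ := eq_top_iff.2 fun a _ => let ⟨g, hg⟩ := h.two a; ⟨g, mem_top _, hg⟩
  rw [← card_top, ← this, h.card_ext, card_top]

end Dat

/-- twisted involutions are twisted conjugates of members of `R` -/
def Tw (q : MulAut G) (R : Set G) (u : G) : Prop := u * q u = 1 → ∃ g, g * u * (q g)⁻¹ ∈ R

theorem Tw.of {q : MulAut G} (qq : ∀ x, q (q x) = x) {R : Set G} {u u' g : G} (e : g * u = u' * q g)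
    (h : Tw q R u') : Tw q R u := fun k => by
  have e' : u' = g * u * (q g)⁻¹ := by rw [e, mul_inv_cancel_right]
  obtain ⟨a, ha⟩ := h (by
    rw [e', map_mul, map_mul, map_inv, qq, show g * u * (q g)⁻¹ * (q g * q u * g⁻¹) = g * (u * q u) * g⁻¹ by group, k]
    simp)
  exact ⟨a * g, by rw [e'] at ha; simpa [mul_assoc] using ha⟩

theorem Dat.classify [Finite G] {y d : G} {E : Subgroup G} {q : MulAut G} (h : Dat y d E q) {o k : ℕ}
    (hG : Nat.card G = o) (hn : ¬ 2 ^ (k + 1 + 1) ∣ 2 * o) {S : Subgroup G} (h1 : E ≤ S) (h2 : S ≤ centralizer {y})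
    (hc : Nat.card S = 2 ^ k) {R : Set G} (hR : ∀ u ∈ S, Tw q R u) {t : MulAut G} (ht : t ^ 2 = 1)
    (ho : t ∉ MonoidHom.range ι) : ∃ r ∈ R, IsConj t (ι r * q) := by
  have hS : ∀ u ∈ S, q u ∈ S := fun u hu => by simpa using mul_mem (h1 (h.qC u (h2 hu))) hu
  obtain ⟨a, u, hu, e⟩ := exists_conj_le (k := k + 1) Nat.prime_two (h.cardA.trans (by rw [hG])) hn
    (E := h.ext S hS) (by rw [h.card_ext, hc, pow_succ']) ht
  rcases e with e | e
  · refine absurd ⟨a⁻¹ u, ?_⟩ ho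
    rw [← conj_aut, ← e]; group
  · have : ι (u * q u) = ι 1 := by
      rw [← h.mul_qq, ← e, map_one, show a * t * a⁻¹ * (a * t * a⁻¹) = a * t ^ 2 * a⁻¹ by rw [pow_two]; group, ht]
      simp
    obtain ⟨g, hg⟩ := hR u hu (h.inj this)
    refine ⟨_, hg, (isConj_iff.2 ⟨a, e⟩).trans (isConj_iff.2 ⟨ι g, ?_⟩)⟩
    rw [← map_inv, Dat.mul_iq, Dat.mul_qi, map_inv]

end gen

noncomputable def el (r : List ℕ) (c0 c1 c2 : List (List ℕ)) (v : ℕ) : List ℕ :=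
  appL r (appL (monoW c0 2 (Nat.mod v 256)) (appL (monoW c1 2 (Nat.mod (Nat.div v 256) 2)) (monoW c2 2 (Nat.div v 512))))

def hL0 : List (List ℕ) := [[4, 6], [5, 6, 5, 4, 5, 6], [0, 2, 7, 11, 5, 9, 2, 9, 5, 11], [7, 9, 1, 13, 12, 13, 1, 9], [5, 9, 13, 7, 3, 7, 13, 9], [9, 1, 9, 7, 13, 12, 13, 7], [11, 12, 1, 12, 11, 13, 12, 13], [0, 2, 4, 11, 13, 5, 10, 9, 10, 5, 13, 11]]
def hL1 : List (List ℕ) := [[0, 2, 0]]
def rho : List (List ℕ) := [[5, 6, 5, 4, 5, 6, 7, 9, 1, 13, 12, 13, 1, 9, 0, 2, 1, 0, 2, 1], [5, 6, 5, 4, 5, 6, 7, 9, 1, 13, 12, 13, 1, 9, 0, 2, 1, 0, 2, 1, 2], [5, 6, 5, 4, 5, 6, 7, 9, 1, 13, 12, 13, 1, 9, 0, 2, 1, 0, 2, 1, 2, 0]]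
def rw : List (List ℕ) := [[], [7], [4, 7], [1, 0, 2, 1], [4, 1, 0, 2, 1]]
def L0 : List (List ℕ) := [[7]]
def L1 : List (List ℕ) := [[4, 9, 1, 9, 5, 1, 0, 2, 1, 9, 1, 9, 4, 1, 0, 2, 1, 9, 1, 9, 5], [4, 7, 9, 1, 9, 5, 1, 0, 2, 1, 9, 1, 9, 4, 1, 0, 2, 1, 9, 1, 9, 7, 5]]
def L2 : List (List ℕ) := [[1, 0, 2, 1], [9, 1, 9, 1, 0, 2, 1, 9, 1, 9], [7, 9, 1, 9, 1, 0, 2, 1, 9, 1, 9, 7], [4, 7, 5, 4, 9, 1, 9, 7, 1, 0, 2, 1, 9, 1, 9, 7, 1, 0, 2, 1, 9, 1, 9, 1, 0, 2, 1]]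
def SG : List (List ℕ) := L0 ++ (L1 ++ (L2 ++ pU0))
def lv1 : List (ℕ × List ℕ × List ℕ) := [(0, [], []), (1, [], []), (2, [4, 2, 5, 4, 1, 2, 4, 5, 4, 1, 2], [9]), (5, [11], []), (2, [4, 2, 5, 4, 1, 2, 4, 5, 4, 2], [9]), (5, [11], []), (2, [2, 4, 0, 1, 5, 4, 1, 2, 4], []), (1, [4, 0, 1, 5, 4, 1, 2, 4], []), (3, [], []), (4, [4, 1, 5, 4, 0, 1, 5, 4, 0, 5, 4], []), (7, [11], []), (5, [11], []), (7, [11], []), (5, [11], []), (10, [11], []), (10, [11], []), (3, [4], []), (5, [11], []), (7, [11], []), (5, [11], []), (5, [11], []), (5, [11], []), (5, [11], []), (4, [4, 5, 4, 1, 2, 4], []), (2, [4, 0, 5, 4, 0, 1, 5, 4, 0, 1], []), (5, [11], []), (2, [2, 4, 0, 1, 5, 4, 1, 2, 4, 5, 4, 1], [9]), (5, [11], []), (5, [11], []), (10, [11], []), (5, [11], []), (10, [11], []), (3, [4, 1], []), (5, [11], []), (5, [11], []), (5, [11], []), (7, [11], []), (5, [11], []), (5, [11], []), (4, [4, 2, 5, 4, 1,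 2, 4], []), (2, [4, 0, 5, 4, 0, 1, 5, 4, 0], []), (5, [11], []), (5, [11], []), (10, [11], []), (2, [2, 4, 0, 1, 5, 4, 1, 2, 4, 5, 4], [9]), (5, [11], []), (5, [11], []), (10, [11], []), (2, [4, 0, 5, 4, 1, 5, 4, 0], []), (1, [4, 5, 4], []), (5, [11], []), (10, [11], []), (5, [11], []), (10, [11], []), (2, [2, 4, 0, 1, 5, 4, 1, 2, 5, 4], []), (2, [4, 0, 5, 4, 2, 5, 4, 0, 5], [9]), (4, [2, 4, 0, 1, 4, 2, 5, 4, 0, 5, 4, 2], [9]), (4, [4, 1, 5, 4, 1, 5, 4, 0], []), (5, [11], []), (5, [11], []), (5, [11], []), (5, [11], []), (10, [11], []), (10, [11], []), (3, [4, 0, 1, 4, 2, 5, 4, 0, 5, 4, 2], [9]), (4, [4, 1, 2, 5, 4, 0, 1, 5, 4, 0, 5, 4, 2], [9]), (5, [11], []), (5, [11], []), (5, [11], []), (5, [11], []), (10, [11], []), (10, [11], []), (2, [4, 5, 4, 1, 2, 4, 0, 5, 4, 0], [9]), (2, [2, 4, 5, 4], []), (5, [11], []), (10, [11], []), (5, [11], []), (10, [11], []), (2, [2, 4, 0, 1, 5, 4, 1,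 2, 4, 5], [9]), (1, [4, 0, 1, 5, 4, 1, 2, 4, 5], [9]), (2, [4, 5, 4, 1, 2, 4, 5, 4, 0], [9]), (5, [11], []), (5, [11], []), (10, [11], []), (2, [2, 4, 0, 1, 5, 4, 1, 2, 5], []), (5, [11], []), (5, [11], []), (10, [11], []), (4, [2, 4, 1], []), (5, [11], []), (5, [11], []), (5, [11], []), (7, [11], []), (5, [11], []), (5, [11], []), (4, [4, 5, 4, 1, 2, 4, 5], [9]), (2, [4, 5, 4, 1, 2, 4, 5, 4, 0, 1], [9]), (5, [11], []), (2, [2, 4, 0, 1, 5, 4, 2, 5], []), (5, [11], []), (5, [11], []), (10, [11], []), (5, [11], []), (10, [11], []), (4, [2, 4], []), (5, [11], []), (7, [11], []), (5, [11], []), (5, [11], []), (5, [11], []), (5, [11], []), (4, [4, 2, 5, 4, 1, 2, 4, 5], [9]), (4, [2], []), (4, [2, 4, 0, 1, 4, 5, 4, 1, 2, 4, 5, 4, 2], [9]), (7, [11], []), (5, [11], []), (7, [11], []), (5, [11], []), (10, [11], []), (10, [11], []), (1, [4, 0, 1, 4, 2], []), (2, [2], []), (2, [2, 4, 0, 1, 5, 4,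 2], []), (5, [11], []), (2, [2, 4, 0, 1, 5, 4, 1, 2], []), (5, [11], []), (2, [4, 2, 5, 4, 0, 1, 4, 5, 4, 0], [9]), (2, [4, 0, 5, 4, 2, 5, 4, 0], [])]

noncomputable def chk (r rh : List ℕ) (Gs roots : List (List ℕ)) (tb : ℕ → ℕ) (v : ℕ) : Bool :=
  frc (tb v) fun t => frc (Nat.mod t 16) fun d => frc (Nat.mod (Nat.div t 16) 16) fun i => frc (Nat.div t 256) fun x =>
    Bool.rec (Bool.rec
      (Nat.blt x 1024 && Nat.blt (Nat.mod (tb x) 16) d && okW 14 (nthW Gs i) &&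
        X22.τ.eqW (appL (nthW Gs i) (el r pL0 pL1 pL2 v)) (appL (el r pL0 pL1 pL2 x) (xw W (nthW Gs i))))
      (memW rho (nthW rho i) && okW 14 (nthW roots x) &&
        X22.τ.eqW (appL (nthW roots x) (el r pL0 pL1 pL2 v)) (appL (nthW rho i) (xw W (nthW roots x))))
      (Nat.beq d 0))
    (neAt X22.τ.ap X22.τ.L X22.τ.n x (appL (el r pL0 pL1 pL2 v) (el rh hL0 hL1 pL2 v)) []) (Nat.beq d 15)

variable {G : Type*} [Group G] [Finite G] (M : PMod X22.τ G) (hM : X22.Gd M) {q : MulAut G} (qq : q * q = 1)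
  (hw : ∀ u, okW 14 u = true → q (M.w u) = M.w (xw W u))

/-- the representatives -/
def RR : Set G := {x | ∃ u ∈ rho, M.w u = x}

omit [Finite G] in
include hw in
theorem hat {cs hs : List (List ℕ)}
    (h : all3 cs (fun c k (_ : List ℕ) => okW 14 c && X22.τ.eqW (xw W c) k) hs hs = true) (v : ℕ) :
    q (M.w (monoW cs 2 v)) = M.w (monoW hs 2 v) := by
  rw [M.w_mono, M.w_mono]
  refine (map_monoL q.toMonoidHom _ _).trans ?_
  congr 1
  have := all3_spec h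
  clear h
  induction this with
  | nil => rfl
  | cons a _ ih =>
    obtain ⟨_, a⟩ := a
    rw [Bool.and_eq_true] at a
    simp only [List.map_cons, ih]
    congr 1
    exact (hw _ a.1).trans (M.eqW a.2)

omit [Finite G] in
include qq hw in
theorem lay {r rh : List ℕ} (hr : (okW 14 r && X22.τ.eqW (xw W r) rh) = true) {Gs roots : List (List ℕ)} {tb : ℕ → ℕ}
    (H : RAll (chk r rh Gs roots tb) 0 1024) : ∀ v < 1024, Tw q (RR M) (M.w (el r pL0 pL1 pL2 v)) := by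
  have q2 : ∀ x, q (q x) = x := fun x => by rw [← MulAut.mul_apply, qq]; rfl
  rw [Bool.and_eq_true] at hr
  suffices k : ∀ d v, v < 1024 → Nat.mod (tb v) 16 = d → Tw q (RR M) (M.w (el r pL0 pL1 pL2 v)) from
    fun v hv => k _ v hv rfl
  intro d
  induction d using Nat.strong_induction_on with
  | _ d ih =>
    intro v hv e
    have h := H v (Nat.zero_le _) hv
    simp only [chk, frc_eq, e] at h
    cases h1 : Nat.beq d 15 <;> rw [h1] at h
    · cases h2 : Nat.beq d 0 <;> rw [h2] at h <;> simp only [Bool.and_eq_true, Nat.blt_eq] at h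
      · have := M.eqW h.2
        rw [M.w_app, M.w_app, ← hw _ h.1.2] at this
        exact Tw.of q2 this (ih _ h.1.1.2 _ h.1.1.1 rfl)
      · have := M.eqW h.2
        rw [M.w_app, M.w_app, ← hw _ h.1.2] at this
        exact Tw.of q2 this fun _ => ⟨1, _, memW_true h.1.1, by simp⟩
    · intro k
      have h' : neAt X22.τ.ap X22.τ.L X22.τ.n (Nat.div (tb v) 256)
        (appL (el r pL0 pL1 pL2 v) (el rh hL0 hL1 pL2 v)) [] = true := h
      refine absurd ?_ (M.neW h')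
      rw [M.w_app, ← show (1 : G) = M.w [] from rfl, ← k]
      congr 1
      simp only [el, M.w_app, map_mul, hw _ hr.1, M.eqW hr.2, hat M hw (cs := pL0) (hs := hL0) (by decide +kernel),
        hat M hw (cs := pL1) (hs := hL1) (by decide +kernel), hat M hw (cs := pL2) (hs := pL2) (by decide +kernel)]

include hM in
theorem coset {P : G → Prop} {r : List ℕ} (h : ∀ v < 1024, P (M.w (el r pL0 pL1 pL2 v))) {e : G}
    (he : e ∈ gp M.e pU0) : P (M.w r * e) := by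
  obtain ⟨v0, h0, e1, h1, rfl⟩ := (psec0 M hM).decomp (by norm_num) ((M.gp_app pL0 pU1).le he)
  obtain ⟨v1, k1, e2, h2, rfl⟩ := (psec1 M hM).decomp (by norm_num) ((M.gp_app pL1 pU2).le h1)
  obtain ⟨v2, k2, e3, h3, rfl⟩ := (psec2 M hM).decomp (by norm_num) ((M.gp_app pL2 pU3).le h2)
  obtain rfl : e3 = 1 := mem_bot.1 (gp_nil.le h3)
  have a0 : v0 < 256 := h0
  have a1 : v1 < 2 := k1
  have a2 : v2 < 2 := k2
  have := h (v0 + 256 * v1 + 512 * v2) (by omega)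
  rw [el, show Nat.mod (v0 + 256 * v1 + 512 * v2) 256 = v0 by show (v0 + 256 * v1 + 512 * v2) % 256 = v0; omega,
    show Nat.mod (Nat.div (v0 + 256 * v1 + 512 * v2) 256) 2 = v1 by show (v0 + 256 * v1 + 512 * v2) / 256 % 2 = v1; omega,
    show Nat.div (v0 + 256 * v1 + 512 * v2) 512 = v2 by show (v0 + 256 * v1 + 512 * v2) / 512 = v2; omega] at this
  simpa only [M.w_app, M.w_mono, mul_one] using this


end Cfsg.Agent.L1AQ
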