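import Cfsg.Agent.L1.AuC2
import Cfsg.Agent.L1.AuC3
set_option autoImplicit false
set_option maxRecDepth 100000

namespace Cfsg.Agent.L1AQ
open Cfsg.Agent.H15 Cfsg.Agent.H14 Subgroup N22I

variable {G : Type*} [Group G] [Finite G] (M : PMod X22.τ G) (hM : X22.Gd M) {q : MulAut G} (qq : q * q = 1)
  (hw : ∀ u, okW 14 u = true → q (M.w u) = M.w (xw W u))

include hM qq hw in
theorem lays : ∀ j < 5, ∀ {e : G}, e ∈ gp M.e pU0 → Tw q (RR M) (M.w (nthW rw j) * e) := fun j hj _ he => by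
  interval_cases j
  · exact coset M hM (lay M qq hw (by decide +kernel) k0) he
  · exact coset M hM (lay M qq hw (by decide +kernel) k1) he
  · exact coset M hM (lay M qq hw (by decide +kernel) k2) he
  · exact coset M hM (lay M qq hw (by decide +kernel) k3) he
  · exact coset M hM (lay M qq hw (by decide +kernel) k4) he
theorem sec2 : Sec (gp M.e pU0) (L2.map M.w) 2 :=
  M.sec (M.gp_le_N [[[0], [1], [2, 3, 9], [3], [1, 4, 9], [0, 1, 5], [0, 3, 4, 5, 6, 7, 8], [0, 7, 9], [8, 9], [9]], [[4, 7, 5, 8], [0, 1, 4, 7, 5, 8], [0, 2, 3, 4, 7, 8], [0, 1, 3], [0, 2, 4, 6], [0, 1, 5], [3, 6, 5], [0, 1, 2, 4, 5, 6, 8], [8, 9], [9]], [[3, 4, 7, 5, 8], [0, 1, 3, 4, 7, 5, 8], [0, 2, 3, 4, 7, 8], [0, 1, 3], [0, 4, 6], [5], [0, 3, 4, 5, 6, 7, 8], [0, 1, 3, 4, 6, 5, 8], [8, 9], [9]], [[0, 3], [1, 3], [2, 3, 9], [3], [1, 2, 4, 8, 9], [5], [3, 6, 5], [0, 2, 3, 7, 8, 9], [8, 9], [9]]] (by decide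 +kernel)) [[], [], [], []] [[[], [], []], [[], []], [[]], []] (by decide +kernel)
theorem sec1 : Sec (gp M.e (L2 ++ pU0)) (L1.map M.w) 2 :=
  M.sec (M.gp_le_N [[[1], [0], [3, 13], [2, 13], [6, 8, 9, 10, 11, 12], [4, 5, 6, 8, 9, 10, 11, 12], [4, 6, 8, 11], [5, 7, 8, 11, 12], [5, 6, 11, 10, 12], [9], [4, 8, 11, 10], [4, 5, 9, 11], [12], [13]], [[2], [3, 13], [0], [1, 13], [7, 8, 9, 11, 10, 12], [4, 5, 7, 8, 9, 11, 10, 12], [4, 6, 8, 11], [5, 7, 8, 11, 12], [5, 11, 10, 12], [5, 8, 11, 9, 12], [10], [4, 5, 7, 9, 11], [12], [13]]] (by decide +kernel)) [[], []] [[[]], []] (by decide +kernel)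
theorem sec0 : Sec (gp M.e (L1 ++ (L2 ++ pU0))) (L0.map M.w) 2 :=
  M.sec (M.gp_le_N [[[1], [0], [2], [4], [3], [5], [6], [7], [8], [9], [10], [9, 11], [8, 12], [13], [14], [15]]] (by decide +kernel)) [[]] [[]] (by decide +kernel)
def sS0 : List (List ℕ) := [[7], [4, 6], [0, 2], [1, 0, 2, 1], [5, 6, 5, 4, 5, 6], [7, 11, 5, 9, 2, 9, 5, 11], [5, 9, 13, 7, 3, 7, 13, 9], [9, 1, 9, 7, 13, 12, 13, 7], [11, 12, 1, 12, 11, 13, 12, 13]]
def sS1 : List (List ℕ) := [[0], [7, 7, 11, 5, 9, 2, 9, 5, 11], [9, 1, 9, 1, 0, 2, 1, 9, 1, 9, 7, 9, 1, 9, 1, 0, 2, 1, 9, 1, 9], [7, 11, 12, 1, 12, 11, 13, 12, 13, 1, 0, 2, 1, 0, 9, 1, 9, 1, 0, 2, 1, 9, 1, 9], [1, 0, 2, 1, 0, 4, 7, 9, 1, 9, 5, 1, 0, 2, 1, 9, 1, 9, 4, 1, 0, 2, 1, 9, 1, 9, 7, 5, 1, 0, 2, 1]]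
theorem lbS : M.LB (sS0 ++ (sS1 ++ [])) [2, 1331] (1024 * (128 * 1)) :=
  PMod.LB.step (PMod.LB.step PMod.LB.nil (by decide +kernel)) (by decide +kernel)
omit [Finite G] in
theorem lbS_le : gp M.e (sS0 ++ (sS1 ++ [])) ≤ gp M.e SG := M.gp_le_gp [[0], [7], [16], [3], [8], [9], [11], [12], [13], [15], [0, 9], [4, 0, 4], [0, 13, 3, 15, 4], [3, 15, 2, 3]] (by decide +kernel)

noncomputable def x1 (v : ℕ) : List ℕ :=
  appL (monoW L0 2 (Nat.mod v 2)) (appL (monoW L1 2 (Nat.mod (Nat.div v 2) 4)) (monoW L2 2 (Nat.div v 8)))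

noncomputable def chk1 (v : ℕ) (t : ℕ × List ℕ × List ℕ) : Bool :=
  Bool.rec
    (okW 14 (xw gs t.2.1) && X22.τ.eqM pU0 (appL (xw gs t.2.1) (appL (x1 v) (invW id (xw gs t.2.1)))) (nthW rw t.1) t.2.2)
    (memW pU0 (nthW pU0 (Nat.sub t.1 5)) && Nat.beq (tr X22.τ.ap y (nth t.2.1 0)) (nth t.2.1 0) &&
      neAt X22.τ.ap X22.τ.L X22.τ.n (nth t.2.1 0) (appL (appL (x1 v) (x1 v)) (nthW pU0 (Nat.sub t.1 5)))
        (appL (nthW pU0 (Nat.sub t.1 5)) (appL (x1 v) (x1 v)))) (Nat.ble 5 t.1)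

theorem c1 : all2 (List.range 128) chk1 lv1 = true := by decide +kernel

include hM in
theorem SC : gp M.e SG ≤ centralizer {M.w y} :=
  (M.gp_le_cen (xs := [y]) (ps := []) (by decide +kernel)).trans ((M.cen_one _).trans (cz _)).le

include hM qq hw in
theorem allS : ∀ u ∈ gp M.e SG, Tw q (RR M) u := fun u hu => by
  have h := dat' M hM qq hw
  have uC := SC M hM hu
  obtain ⟨v0, h0, e1, h1, rfl⟩ := (sec0 M).decomp (by norm_num) ((M.gp_app L0 _).le hu)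
  obtain ⟨v1, k1, e2, h2, rfl⟩ := (sec1 M).decomp (by norm_num) ((M.gp_app L1 _).le h1)
  obtain ⟨v2, k2, e, he, rfl⟩ := (sec2 M).decomp (by norm_num) ((M.gp_app L2 _).le h2)
  have a0 : v0 < 2 := h0
  have a1 : v1 < 4 := k1
  have a2 : v2 < 16 := k2
  obtain ⟨t, ht⟩ := all2_spec c1 (v0 + 2 * v1 + 8 * v2) (List.mem_range.2 (by omega))
  have ex : M.w (x1 (v0 + 2 * v1 + 8 * v2)) * e = monoL (L0.map M.w) (vec 2 v0) *
      (monoL (L1.map M.w) (vec 2 v1) * (monoL (L2.map M.w) (vec 2 v2) * e)) := by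
    rw [x1, show Nat.mod (v0 + 2 * v1 + 8 * v2) 2 = v0 by show (v0 + 2 * v1 + 8 * v2) % 2 = v0; omega,
      show Nat.mod (Nat.div (v0 + 2 * v1 + 8 * v2) 2) 4 = v1 by show (v0 + 2 * v1 + 8 * v2) / 2 % 4 = v1; omega,
      show Nat.div (v0 + 2 * v1 + 8 * v2) 8 = v2 by show (v0 + 2 * v1 + 8 * v2) / 8 = v2; omega]
    simp only [M.w_app, M.w_mono, mul_assoc]
  rw [← ex] at uC ⊢
  generalize v0 + 2 * v1 + 8 * v2 = v at ht uC
  have xC : M.w (x1 v) ∈ centralizer {M.w y} := (mul_mem_cancel_right (h.le he)).1 uC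
  rw [chk1] at ht
  cases h5 : Nat.ble 5 t.1 <;> rw [h5] at ht <;> simp only [Bool.and_eq_true, nbeq_iff] at ht
  · have gC : M.w (xw gs t.2.1) ∈ centralizer {M.w y} :=
      ((M.cen_one _).trans (cz _)).le ((main M hM).1.le (mem_sup_left (M.xw_mem _ _)))
    have k := M.eqM_spec ht.2
    rw [M.w_app, M.w_app, M.w_inv] at k
    generalize M.w (xw gs t.2.1) = g at gC k
    have k2 := mul_mem (mul_mem k (h.nrm g gC e he)) (inv_mem (h.qC g gC))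
    refine Tw.of h.qq' (g := g) (u' := M.w (nthW rw t.1) * _) ?_ (lays M hM qq hw t.1 (nble_false.1 h5) k2)
    group
  · intro k
    obtain ⟨⟨m, fy⟩, ne⟩ := ht
    have z : M.w (x1 v) * M.w (x1 v) ∈ gp M.e pU0 := by
      have b1 := h.qC _ uC
      rw [eq_inv_of_mul_eq_one_right k] at b1
      have b4 := h.nrm _ xC _ (mul_mem (inv_mem he) (mul_mem (h.nrm _ (inv_mem xC) _ (inv_mem b1)) (h.nrm _ (inv_mem xC) _ (inv_mem he))))
      simpa [mul_assoc] using b4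
    have cm := h.comm _ z (M.w (nthW pU0 (Nat.sub t.1 5))) (mem_gp (memW_true m))
    have ne' := ne
    simp only [neAt, Bool.and_eq_true, Nat.blt_eq, Bool.not_eq_true', nbeq_false] at ne'
    obtain ⟨⟨⟨o1, o2⟩, hb⟩, nn⟩ := ne'
    refine absurd ?_ nn
    have cy : Commute (M.w y) (M.T (nth t.2.1 0)) := (M.comm_iff (by decide +kernel) hb).2 fy
    obtain ⟨n, hn⟩ := cm
    have c2 := cy.zpow_left n
    simp only [] at hn
    rw [hn] at c2
    apply M.inj _ (M.tr_spec o1 hb).1 _ (M.tr_spec o2 hb).1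
    rw [← (M.tr_spec o1 hb).2, ← (M.tr_spec o2 hb).2]
    simp only [M.w_app]
    generalize M.w (x1 v) * M.w (x1 v) = z at c2
    have c3 := c2.eq
    rw [commutatorElement_def] at c3
    generalize M.w (nthW pU0 (Nat.sub t.1 5)) = c at c3
    generalize M.T (nth t.2.1 0) = b at c3
    calc (z * c)⁻¹ * b * (z * c) = (z * c)⁻¹ * (b * (z * c * z⁻¹ * c⁻¹)) * (c * z) := by group
      _ = _ := by rw [← c3]; group

include hM in
theorem cardS : Nat.card (gp M.e SG) = 2 ^ 17 :=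
  le_antisymm (M.card_sec (sec0 M) (by norm_num) (M.card_sec (sec1 M) (by norm_num) (M.card_sec (sec2 M) (by norm_num) (pub0 M hM))))
    ((lbS M).le.trans (card_le_of_le (lbS_le M)))

include hM qq hw in
theorem classes {t : MulAut G} (ht : t ^ 2 = 1) (ho : t ∉ MonoidHom.range (MulAut.conj : G →* MulAut G)) :
    ∃ u ∈ rho, IsConj t (MulAut.conj (M.w u) * q) := by
  obtain ⟨_, ⟨u, hu, rfl⟩, k⟩ := (dat' M hM qq hw).classify (k := 17) hM.card (by norm_num)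
    (((M.gp_le_app L2 _).trans (M.gp_le_app L1 _)).trans (M.gp_le_app L0 _)) (SC M hM) (cardS M hM) (allS M hM qq hw) ht ho
  exact ⟨u, hu, k⟩

end Cfsg.Agent.L1AQ
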