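import Cfsg.Agent.H15.Nm
import Cfsg.Agent.H29.Large
import Cfsg.Agent.H3.Extra
set_option autoImplicit false

namespace Cfsg.Agent.L1AQ
open Cfsg.Agent.H15 Subgroup
open scoped commutatorElement

variable {G : Type*} [Group G]

local notation "ι" => (MulAut.conj : G →* MulAut G)

theorem aut_conj (q : MulAut G) (x : G) : q * ι x = ι (q x) * q := by
  ext z; simp

theorem conj_aut (q : MulAut G) (x : G) : q * ι x * q⁻¹ = ι (q x) := by
  rw [aut_conj, mul_inv_cancel_right]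

/-- the data of an outer involution acting trivially on `C / E` and on `E / ⟨y⟩` -/
structure Dat (y d : G) (E : Subgroup G) (q : MulAut G) : Prop where
  inj : Function.Injective ι
  card : Nat.card (MulAut G) ≤ 2 * Nat.card G
  oy : orderOf y = 2
  yE : y ∈ E
  le : E ≤ centralizer {y}
  nrm : ∀ c ∈ centralizer {y}, ∀ e ∈ E, c * e * c⁻¹ ∈ E
  qq : q * q = 1
  qy : q y = y
  qC : ∀ c ∈ centralizer {y}, q c * c⁻¹ ∈ E
  qE : ∀ e ∈ E, q e * e⁻¹ ∈ zpowers y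
  dE : d ∈ E
  dZ : ∀ e ∈ E, e * d = d * e
  qd : q d ≠ d
  comm : ∀ a ∈ E, ∀ b ∈ E, ⁅a, b⁆ ∈ zpowers y
  zE : ∀ e ∈ E, (∀ x ∈ E, x * e = e * x) → q e = e → e ∈ zpowers y
  cen : ∀ g ∈ centralizer {y}, (∀ e ∈ E, g * e * g⁻¹ * e⁻¹ ∈ zpowers y) → g ∈ E

namespace Dat
variable {y d : G} {E : Subgroup G} {q : MulAut G} (h : Dat y d E q)
include h

theorem zle : zpowers y ≤ E := zpowers_le.2 h.yE

theorem qE' {e : G} (he : e ∈ E) : q e ∈ E := by
  simpa using E.mul_mem (h.zle (h.qE e he)) he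

theorem qC' {c : G} (hc : c ∈ centralizer {y}) : q c ∈ centralizer {y} := by
  simpa using mul_mem (h.le (h.qC c hc)) hc

theorem qinv : q⁻¹ = q := inv_eq_of_mul_eq_one_left h.qq

theorem out (g : G) : ι g ≠ q := fun e => by
  have e' : ∀ x, q x = g * x * g⁻¹ := fun x => by rw [← e]; rfl
  have hg : g ∈ centralizer {y} := by
    rw [mem_centralizer_singleton_iff, ← mul_inv_eq_iff_eq_mul, ← e', h.qy]
  have := h.cen g hg fun x hx => e' x ▸ h.qE x hx
  exact h.qd (by rw [e', h.dZ g this, mul_inv_cancel_right])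

theorem two [Finite G] (a : MulAut G) : ∃ g, a = ι g ∨ a = ι g * q := by
  have h1 : Nat.card (MonoidHom.range ι) = Nat.card G := (Nat.card_congr (MonoidHom.ofInjective h.inj).toEquiv).symm
  have h2 := (MonoidHom.range ι).index_mul_card
  have h3 : (MonoidHom.range ι).index ≠ 1 := fun e => by
    obtain ⟨g, hg⟩ : q ∈ MonoidHom.range ι := index_eq_one.1 e ▸ mem_top q
    exact h.out g hg
  have h4 : (MonoidHom.range ι).index ≤ 2 := by
    have := h.card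
    rw [← h2, h1] at this
    exact Nat.le_of_mul_le_mul_right this Nat.card_pos
  have h5 : (MonoidHom.range ι).index ≠ 0 := index_ne_zero_of_finite
  have h6 : (MonoidHom.range ι).index = 2 := by omega
  by_cases ha : a ∈ MonoidHom.range ι
  · obtain ⟨g, hg⟩ := ha
    exact ⟨g, Or.inl hg.symm⟩
  · have hq : q ∉ MonoidHom.range ι := fun ⟨g, hg⟩ => h.out g hg
    obtain ⟨g, hg⟩ : a * q ∈ MonoidHom.range ι := (mul_mem_iff_of_index_two h6).2 (by simp [ha, hq])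
    exact ⟨g, Or.inr (by rw [hg, mul_assoc, h.qq, mul_one])⟩

omit h in
theorem mul_ii (a b : G) : ι a * ι b = ι (a * b) := (map_mul _ _ _).symm
omit h in
theorem mul_iq (a b : G) : ι a * (ι b * q) = ι (a * b) * q := by rw [map_mul, mul_assoc]
omit h in
theorem mul_qi (a b : G) : ι a * q * ι b = ι (a * q b) * q := by rw [mul_assoc, aut_conj, map_mul, mul_assoc]
theorem mul_qq (a b : G) : ι a * q * (ι b * q) = ι (a * q b) := by
  rw [← mul_assoc, mul_qi, mul_assoc, h.qq, mul_one]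

theorem qq' (x : G) : q (q x) = x := by rw [← MulAut.mul_apply, h.qq]; rfl

theorem inv_q (a : G) : (ι a * q)⁻¹ = ι (q a⁻¹) * q := by
  rw [mul_inv_rev, h.qinv, ← map_inv, aut_conj]

theorem memC {a : MulAut G} : a ∈ centralizer {ι y} ↔ a y = y := by
  rw [mem_centralizer_singleton_iff, aut_conj, mul_left_inj, h.inj.eq_iff]

theorem memC' [Finite G] {a : MulAut G} :
    a ∈ centralizer {ι y} ↔ ∃ c ∈ centralizer {y}, a = ι c ∨ a = ι c * q := by
  rw [h.memC]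
  constructor
  · intro e
    obtain ⟨g, hg⟩ := h.two a
    refine ⟨g, ?_, hg⟩
    rw [mem_centralizer_singleton_iff, ← mul_inv_eq_iff_eq_mul]
    rcases hg with rfl | rfl
    · exact e
    · simpa [h.qy] using e
  · rintro ⟨c, hc, rfl | rfl⟩ <;>
      simpa [h.qy, mul_inv_eq_iff_eq_mul] using mem_centralizer_singleton_iff.1 hc

/-- the extraspecial group -/
def Q : Subgroup (MulAut G) where
  carrier := {a | ∃ e ∈ E, a = ι e ∨ a = ι e * q}
  one_mem' := ⟨1, one_mem _, Or.inl (map_one _).symm⟩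
  mul_mem' := by
    rintro _ _ ⟨a, ha, rfl | rfl⟩ ⟨b, hb, rfl | rfl⟩
    · exact ⟨_, mul_mem ha hb, Or.inl (mul_ii a b)⟩
    · exact ⟨_, mul_mem ha hb, Or.inr (mul_iq a b)⟩
    · exact ⟨_, mul_mem ha (h.qE' hb), Or.inr (mul_qi a b)⟩
    · exact ⟨_, mul_mem ha (h.qE' hb), Or.inl (h.mul_qq a b)⟩
  inv_mem' := by
    rintro _ ⟨a, ha, rfl | rfl⟩
    · exact ⟨_, inv_mem ha, Or.inl (map_inv _ _).symm⟩
    · exact ⟨_, h.qE' (inv_mem ha), Or.inr (h.inv_q a)⟩

theorem memQ {a : MulAut G} : a ∈ h.Q ↔ ∃ e ∈ E, a = ι e ∨ a = ι e * q := Iff.rfl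

theorem iQ {e : G} : ι e ∈ h.Q ↔ e ∈ E := by
  refine ⟨?_, fun he => ⟨e, he, Or.inl rfl⟩⟩
  rintro ⟨a, ha, k | k⟩
  · exact h.inj k ▸ ha
  · exact absurd (by rw [map_mul, map_inv, k, inv_mul_cancel_left]) (h.out (a⁻¹ * e))

theorem qQ : q ∈ h.Q := ⟨1, one_mem _, Or.inr (by simp)⟩

theorem Qle [Finite G] : h.Q ≤ centralizer {ι y} := fun _ ⟨e, he, k⟩ => h.memC'.2 ⟨e, h.le he, k⟩

theorem Qnrm [Finite G] : (h.Q.subgroupOf (centralizer {ι y})).Normal := by
  have k1 : ∀ c ∈ centralizer {y}, ∀ a ∈ h.Q, ι c * a * (ι c)⁻¹ ∈ h.Q := by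
    rintro c hc _ ⟨e, he, rfl | rfl⟩
    · rw [← map_inv, ← map_mul, ← map_mul]; exact h.iQ.2 (h.nrm c hc e he)
    · rw [← map_inv, mul_iq, mul_qi]
      refine ⟨_, ?_, Or.inr rfl⟩
      have := mul_mem (h.nrm c hc e he) (inv_mem (h.qC c hc))
      simpa [mul_assoc] using this
  refine ⟨fun a ha c => ?_⟩
  obtain ⟨g, hg, k | k⟩ := h.memC'.1 c.2
  · show (c : MulAut G) * a * (c : MulAut G)⁻¹ ∈ h.Q
    rw [k]; exact k1 g hg a ha
  · show (c : MulAut G) * a * (c : MulAut G)⁻¹ ∈ h.Q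
    rw [k]
    have := k1 g hg _ (mul_mem (mul_mem h.qQ ha) (inv_mem h.qQ))
    simpa [mul_assoc] using this

theorem cardQ [Finite G] : Nat.card h.Q = 2 * Nat.card E := by
  let f : E ⊕ E → h.Q := Sum.elim (fun e => ⟨ι e, e, e.2, Or.inl rfl⟩) fun e => ⟨ι e * q, e, e.2, Or.inr rfl⟩
  have hf : Function.Bijective f := by
    constructor
    · rintro (a | a) (b | b) k <;> have k' := congrArg Subtype.val k <;> simp only [f, Sum.elim_inl, Sum.elim_inr] at k'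
      · rw [Subtype.ext (h.inj k')]
      · exact absurd (by rw [map_mul, map_inv, k', inv_mul_cancel_left]) (h.out ((b : G)⁻¹ * a))
      · exact absurd (by rw [map_mul, map_inv, ← k', inv_mul_cancel_left]) (h.out ((a : G)⁻¹ * b))
      · rw [Subtype.ext (h.inj (mul_right_cancel k'))]
    · rintro ⟨_, e, he, rfl | rfl⟩
      exacts [⟨.inl ⟨e, he⟩, rfl⟩, ⟨.inr ⟨e, he⟩, rfl⟩]
  rw [← Nat.card_congr (Equiv.ofBijective f hf), Nat.card_sum, two_mul]

theorem zmap {x : G} (hx : x ∈ zpowers y) : ι x ∈ zpowers (ι y) := by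
  obtain ⟨k, rfl⟩ := hx
  exact ⟨k, (map_zpow _ _ _).symm⟩

theorem zc {x e : G} (hx : x ∈ zpowers y) (he : e ∈ E) : x * e = e * x := by
  obtain ⟨k, rfl⟩ := hx
  exact (Commute.zpow_left (mem_centralizer_singleton_iff.1 (h.le he) : Commute e y).symm k)

theorem cenQ [Finite G] : centralizer {ι y} ⊓ centralizer (h.Q : Set (MulAut G)) ≤ h.Q := by
  rintro a ⟨ha, hc⟩
  have k : ∀ e ∈ E, a e = e := fun e he => by
    have := hc _ (h.iQ.2 he)
    rwa [aut_conj, mul_left_inj, h.inj.eq_iff, eq_comm] at this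
  obtain ⟨c, hc', rfl | rfl⟩ := h.memC'.1 ha
  · exact h.iQ.2 (h.cen c hc' fun e he => by
      have : c * e * c⁻¹ = e := k e he
      rw [this, mul_inv_cancel]; exact one_mem _)
  · refine ⟨c, h.cen c hc' fun e he => ?_, Or.inr rfl⟩
    have : c * q (q e) * c⁻¹ = q e := k _ (h.qE' he)
    rw [h.qq'] at this
    rw [this]; exact h.qE e he

theorem xs [Finite G] : H3.XS 2 h.Q (ι y) := by
  have n : ∀ {a b : G}, a ∈ E → b ∈ E → ∀ {u v : G}, u ∈ zpowers y → v ∈ zpowers y →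
      ι (u * ⁅a, b⁆ * v) ∈ zpowers (ι y) := fun ha hb _ _ hu hv =>
    h.zmap (mul_mem (mul_mem hu (h.comm _ ha _ hb)) hv)
  have w : ∀ a ∈ E, ∃ u ∈ zpowers y, q a = u * a := fun a ha => ⟨_, h.qE a ha, by simp⟩
  have yQ : ι y ∈ centralizer (h.Q : Set (MulAut G)) := fun a ha => mem_centralizer_singleton_iff.1 (h.Qle ha)
  refine ⟨⟨Nat.prime_two, (orderOf_injective _ h.inj y).trans h.oy, h.iQ.2 h.yE, yQ, ?_⟩, le_antisymm ?_
    (zpowers_le.2 ⟨h.iQ.2 h.yE, yQ⟩)⟩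
  · have k : ∀ a ∈ E, ⁅ι a, q⁆ ∈ zpowers (ι y) := fun a ha => by
      rw [commutatorElement_def, mul_assoc, mul_assoc, ← mul_assoc q, ← map_inv, conj_aut, ← map_mul]
      have := inv_mem (h.qE a ha)
      exact h.zmap (by simpa using this)
    have zz : ∀ x ∈ h.Q, ∀ u ∈ zpowers (ι y), x * u * x⁻¹ = u := by
      rintro x hx _ ⟨m, rfl⟩
      have : Commute x (ι y) := yQ x hx
      simp only []
      rw [(this.zpow_right m).eq, mul_inv_cancel_right]
    have l1 : ∀ a ∈ h.Q, ∀ b c, ⁅a, c⁆ ∈ zpowers (ι y) → ⁅b, c⁆ ∈ zpowers (ι y) → ⁅a * b, c⁆ ∈ zpowers (ι y) :=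
      fun a ha b c h1 h2 => by
        have : ⁅a * b, c⁆ = a * ⁅b, c⁆ * a⁻¹ * ⁅a, c⁆ := by simp only [commutatorElement_def]; group
        rw [this, zz a ha _ h2]; exact mul_mem h2 h1
    have sw : ∀ a b : MulAut G, ⁅a, b⁆ ∈ zpowers (ι y) → ⁅b, a⁆ ∈ zpowers (ι y) := fun a b k => by
      rw [← commutatorElement_inv]; exact inv_mem k
    have ii : ∀ a ∈ E, ∀ b ∈ E, ⁅ι a, ι b⁆ ∈ zpowers (ι y) := fun a ha b hb => by
      rw [← map_commutatorElement]; exact h.zmap (h.comm a ha b hb)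
    have iq : ∀ a ∈ E, ∀ b ∈ E, ⁅ι a, ι b * q⁆ ∈ zpowers (ι y) := fun a ha b hb =>
      sw _ _ (l1 _ (h.iQ.2 hb) _ _ (ii b hb a ha) (sw _ _ (k a ha)))
    rintro _ ⟨a, ha, rfl | rfl⟩ _ ⟨b, hb, rfl | rfl⟩
    · exact ii a ha b hb
    · exact iq a ha b hb
    · exact sw _ _ (iq b hb a ha)
    · exact l1 _ (h.iQ.2 ha) _ _ (iq a ha b hb)
        (sw _ _ (l1 _ (h.iQ.2 hb) _ _ (k b hb) (by rw [commutatorElement_self]; exact one_mem _)))
  · rintro a ⟨⟨e, he, k⟩, hc⟩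
    have k1 : ∀ x ∈ E, a x = x := fun x hx => by
      have := hc _ (h.iQ.2 hx)
      rwa [aut_conj, mul_left_inj, h.inj.eq_iff, eq_comm] at this
    rcases k with rfl | rfl
    · refine h.zmap (h.zE e he (fun x hx => ?_) ?_)
      · exact (mul_inv_eq_iff_eq_mul.1 (k1 x hx)).symm
      · have := hc _ h.qQ
        rwa [aut_conj, mul_left_inj, h.inj.eq_iff] at this
    · have : e * q d * e⁻¹ = d := k1 d h.dE
      rw [mul_inv_eq_iff_eq_mul, ← h.dZ e he, mul_right_inj] at this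
      exact absurd this h.qd

theorem quot [Finite G] [n : (E.subgroupOf (centralizer {y})).Normal] :
    haveI := h.Qnrm
    Nonempty ((centralizer {ι y} ⧸ h.Q.subgroupOf (centralizer {ι y})) ≃*
      (centralizer {y} ⧸ E.subgroupOf (centralizer {y}))) := by
  haveI := h.Qnrm
  let i : centralizer ({y} : Set G) →* centralizer ({ι y} : Set (MulAut G)) :=
    (MonoidHom.comp ι (Subgroup.subtype _)).codRestrict _ fun c => h.memC'.2 ⟨c, c.2, Or.inl rfl⟩
  let ψ := (QuotientGroup.mk' (h.Q.subgroupOf (centralizer {ι y}))).comp i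
  have hs : Function.Surjective ψ := fun x => by
    obtain ⟨a, rfl⟩ := QuotientGroup.mk_surjective x
    obtain ⟨c, hc, k | k⟩ := h.memC'.1 a.2
    · exact ⟨⟨c, hc⟩, congrArg (QuotientGroup.mk' _) (Subtype.ext k.symm : i ⟨c, hc⟩ = a)⟩
    · refine ⟨⟨c, hc⟩, QuotientGroup.eq.2 ?_⟩
      show (ι c)⁻¹ * (a : MulAut G) ∈ h.Q
      rw [k, inv_mul_cancel_left]; exact h.qQ
  have hk : E.subgroupOf (centralizer {y}) = ψ.ker := by
    ext c
    rw [MonoidHom.mem_ker, mem_subgroupOf, ← h.iQ]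
    exact (QuotientGroup.eq_one_iff (N := h.Q.subgroupOf (centralizer {ι y})) (i c)).symm
  exact ⟨((QuotientGroup.quotientMulEquivOfEq hk).trans (QuotientGroup.quotientKerEquivOfSurjective ψ hs)).symm⟩

theorem main [Finite G] {T : Type*} [Group T] [Finite T] {S : Subgroup T} (hq : QH (centralizer {y}) E S)
    (h2 : pCore 2 S = ⊥) (hE : Nat.card E = 2 ^ 10) {g : G} (g1 : g * y * g⁻¹ ∈ E) (g2 : g * y * g⁻¹ ≠ y)
    {Q : Subgroup (MulAut G)} (hQ : Q = (generalizedFittingSubgroup (centralizer ({ι y} : Set (MulAut G)))).map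
      (centralizer ({ι y} : Set (MulAut G))).subtype) :
    IsLargeExtraspecial Q ∧ Nat.card Q = 2 ^ 11 ∧ Q ≤ centralizer {ι y} ∧
      ∃ _ : (Q.subgroupOf (centralizer {ι y})).Normal,
        Nonempty ((centralizer {ι y} ⧸ Q.subgroupOf (centralizer {ι y})) ≃* S) := by
  haveI := h.Qnrm
  obtain ⟨n, ⟨f⟩⟩ := hq.iso'
  obtain ⟨f'⟩ := h.quot
  have c : Nat.card h.Q = 2 ^ 11 := by rw [h.cardQ, hE]; norm_num
  have q1 : QH (centralizer {ι y}) h.Q
      (⊤ : Subgroup (centralizer ({ι y} : Set (MulAut G)) ⧸ h.Q.subgroupOf (centralizer {ι y}))) :=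
    ⟨h.Qle, QuotientGroup.mk' _, QuotientGroup.range_mk' _, QuotientGroup.ker_mk' _⟩
  have q2 := QH.fstar (q1.pcore (IsPGroup.of_card c)
    (pCore_bot_of_equiv (topEquiv.trans (f'.trans f)) h2)) h.Qle h.cenQ
  have q3 : Q = h.Q := by rw [hQ, q1.map_sub q2]
  subst q3
  have ex : IsExtraspecial 2 h.Q := h.xs.isExtraspecial (h.xs.not_ab_of_card (n := 5) (by norm_num) c)
  have le := (H29.le_of_genFitting h.xs.ord hQ.symm ex).1
  have a : ι g * ι y * (ι g)⁻¹ = ι (g * y * g⁻¹) := by simp only [map_mul, map_inv]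
  have a1 : ι g * ι y * (ι g)⁻¹ ∈ h.Q := a ▸ h.iQ.2 g1
  have a2 : ι g * ι y * (ι g)⁻¹ ≠ ι y := a ▸ h.inj.ne g2
  exact ⟨le.large_of_conj a1 a2 (le.sym (by rw [c]; norm_num) a1 a2), c, h.Qle, inferInstance, ⟨f'.trans f⟩⟩

end Dat

end Cfsg.Agent.L1AQ
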