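import Cfsg.Agent.L1.AuQ
import Cfsg.Agent.H15.N22I
import Cfsg.Agent.H19.Aut
set_option autoImplicit false
set_option maxRecDepth 100000

namespace Cfsg.Agent.L1AQ
open Cfsg.Agent.H15 Cfsg.Agent.H14 Subgroup N22I

def W : List (List ℕ) := [[2], [1], [0], [6, 9, 10, 5, 10, 9, 6], [6], [5], [4], [9, 1, 13, 12, 13, 1, 9], [10, 12, 8, 9, 0, 9, 8, 12, 10], [10, 13, 11, 2, 11, 13, 10], [9, 13, 11, 0, 11, 13, 9], [11], [12], [13]]
def U : List (List ℕ) := [[0], [1], [2], [3], [4], [5], [6], [7], [8], [8, 3, 7, 5, 4, 3, 2, 1, 2, 3, 4, 5, 7, 3, 8], [4, 2, 3, 7, 8, 5, 4, 2, 3, 7, 6, 5, 4, 3, 2, 1, 2, 3, 4, 5, 6, 7, 3, 2, 4, 5, 8, 7, 3, 2, 4], [2, 3, 4, 1, 2, 3, 7, 8, 4, 5, 3, 4, 2, 3, 7, 6, 5, 4, 3, 2, 1, 2, 3, 4, 5, 6, 7, 3, 2, 4, 3, 5, 4, 8, 7, 3, 2, 1, 4, 3, 2], [7, 8, 3, 7, 6, 4, 5, 1, 2, 3, 4, 0, 1, 2, 3, 7, 8, 4, 5, 2, 3, 4, 1, 2, 3, 7, 6, 5, 4, 3, 2, 1, 0, 1, 2, 3, 4, 5, 6, 7, 3, 2, 1, 4, 3, 2, 5, 4, 8, 7, 3, 2, 1, 0,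 4, 3, 2, 1, 5, 4, 6, 7, 3, 8, 7], [8, 4, 3, 7, 5, 1, 2, 3, 4, 0, 1, 2, 3, 7, 8, 4, 5, 2, 3, 4, 1, 2, 3, 7, 6, 5, 4, 3, 2, 1, 0, 1, 2, 3, 4, 5, 6, 7, 3, 2, 1, 4, 3, 2, 5, 4, 8, 7, 3, 2, 1, 0, 4, 3, 2, 1, 5, 7, 3, 4, 8]]

variable {G : Type*} [Group G] [Finite G] (M : PMod X22.τ G) (hM : X22.Gd M)

omit [Finite G] in
theorem w_xw (u : List ℕ) : M.w (xw W u) = lprod (fun l => M.w (nthW W l)) u := lprod_subst _ _

omit [Finite G] in
include hM in
theorem exists_q : ∃ q : MulAut G, q * q = 1 ∧ ∀ u, okW 14 u = true → q (M.w u) = M.w (xw W u) := by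
  obtain ⟨φ, hφ⟩ := hM.iso
  have c1 : allL W (fun w => X22.τ.eqW (repL w 2) []) = true := by decide +kernel
  have c2 : allL Fi22.D.B (fun p => X22.τ.eqW (repL (xw W p.1) p.2) []) = true := by decide +kernel
  have c3 : allLt 14 (fun l => okW 9 (nthW U l) && X22.τ.eqW [l] (nthW U l) &&
    X22.τ.eqW (xw W (nthW U l)) (nthW W l) && okW 14 (nthW W l) && X22.τ.eqW (xw W (nthW W l)) [l]) = true := by
    decide +kernel
  simp only [allLt_iff, Bool.and_eq_true] at c3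
  obtain ⟨ψ, hψ⟩ := Fi22.good.exists_hom (π := fun l => M.w (nthW W l)) (fun l => by
      rw [Fi22.D.inv_eq (by decide +kernel)]
      rcases PMod.nthW_cases W l with h | h
      · have := M.powW (allL_iff.1 c1 _ h)
        rw [pow_two] at this
        exact (inv_eq_of_mul_eq_one_left this).symm
      · rw [h]; exact inv_one.symm)
    fun p hp => by rw [← w_xw]; exact M.powW (allL_iff.1 c2 p hp)
  let f : G →* G := ψ.comp φ.symm.toMonoidHom
  have h9 : ∀ l < 9, f (M.e l) = M.w (nthW W l) := fun l hl => by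
    rw [← hφ l hl, ← hψ l hl]
    exact congrArg ψ (φ.symm_apply_apply _)
  have h14 : ∀ l < 14, f (M.e l) = M.w (nthW W l) := fun l hl => by
    obtain ⟨⟨⟨⟨a, b⟩, c⟩, -⟩, -⟩ := c3 l hl
    rw [← lprod_single (E := M.e), show lprod M.e [l] = _ from M.eqW b, ← M.eqW c, w_xw, PMod.w, map_lprod]
    exact lprod_congr fun x hx => h9 x (okW_iff.1 a x hx)
  have hw : ∀ u, okW 14 u = true → f (M.w u) = M.w (xw W u) := fun u hu => by
    rw [w_xw, PMod.w, map_lprod]
    exact lprod_congr fun x hx => h14 x (okW_iff.1 hu x hx)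
  have ff : f.comp f = MonoidHom.id G := MonoidHom.ext fun x =>
    (hM.top ((f.comp f).eqLocus (MonoidHom.id G)) fun l hl => by
      obtain ⟨⟨-, a⟩, b⟩ := c3 l (by omega)
      show f (f (M.e l)) = M.e l
      rw [h14 l (by omega), hw _ a, M.eqW b]; exact lprod_single _).ge (mem_top x)
  exact ⟨MonoidHom.toMulEquiv f f ff ff, MulEquiv.ext fun x => DFunLike.congr_fun ff x, hw⟩

include hM in
theorem dat' {q : MulAut G} (qq : q * q = 1) (hw : ∀ u, okW 14 u = true → q (M.w u) = M.w (xw W u)) :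
    Dat (M.w y) (M.w [0]) (gp M.e pU0) q := by
  obtain ⟨φ, -⟩ := hM.iso
  have hC : M.cen [y] [] = centralizer {M.w y} := (M.cen_one _).trans (cz _)
  have m := main M hM
  rw [hC] at m
  have le : gp M.e pU0 ≤ centralizer {M.w y} := m.2.2.2.qh.1
  have nrm : ∀ c ∈ centralizer {M.w y}, ∀ e ∈ gp M.e pU0, c * e * c⁻¹ ∈ gp M.e pU0 := fun c hc e he =>
    m.2.2.2.qh.normal.conj_mem ⟨e, le he⟩ he ⟨c, hc⟩
  have zy : ∀ e ∈ gp M.e pU0, ∀ x ∈ zpowers (M.w y), e * x * e⁻¹ = x := by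
    rintro e he _ ⟨k, rfl⟩
    have : Commute e (M.w y) := mem_centralizer_singleton_iff.1 (le he)
    simp only []
    rw [(this.zpow_right k).eq, mul_inv_cancel_right]
  have qy : q (M.w y) = M.w y := by rw [hw _ (by decide +kernel)]; exact M.eqW (by decide +kernel)
  have yE : M.w y ∈ gp M.e pU0 := mem_gp (by decide)
  have dZ : ∀ e ∈ gp M.e pU0, e * M.w [0] = M.w [0] * e := fun e he =>
    ((M.mem_cen.1 (M.gp_le_cen (xs := [[0]]) (ps := []) (by decide +kernel) he)).1 _ (by simp)).eq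
  have qd : q (M.w [0]) ≠ M.w [0] := by rw [hw _ (by decide +kernel)]; exact M.neW (x := 695) (by decide +kernel)
  have qE : ∀ e ∈ gp M.e pU0, q e * e⁻¹ ∈ zpowers (M.w y) := fun e he => by
    induction he using closure_induction with
    | mem x hx =>
      obtain ⟨u, hu, rfl⟩ := hx
      obtain ⟨t, ht⟩ := all2_spec (show all2 pU0 (fun u t => okW 14 u && X22.τ.eqW (xw W u) (appL (xw [y] t) u))
        [[], [], [0], [], [], [], [], [0], [0], []] = true by decide +kernel) u hu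
      rw [Bool.and_eq_true] at ht
      rw [hw u ht.1, M.eqW ht.2, M.w_app, mul_inv_cancel_right, ← M.gp_one]
      exact M.xw_mem _ _
    | one => simp
    | mul a b ha _ h1 h2 =>
      have := mul_mem h1 (show a * (q b * b⁻¹) * a⁻¹ ∈ _ by rw [zy a ha _ h2]; exact h2)
      simpa [mul_assoc] using this
    | inv a ha h1 =>
      have := inv_mem (show a⁻¹ * (q a * a⁻¹) * a⁻¹⁻¹ ∈ zpowers (M.w y) by rw [zy _ (inv_mem ha) _ h1]; exact h1)
      simpa [mul_assoc] using this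
  refine ⟨?_, ?_, M.orderW (x := 2) (by norm_num) (by decide +kernel), yE, le, nrm, qq, qy, fun c hc => ?_, qE,
    mem_gp (by decide), dZ, qd, fun a ha b hb => ?_, fun e he hz k => ?_, fun g hg k => ?_⟩
  · rw [injective_iff_map_eq_one]
    exact fun g hg => M.base g fun b _ => mul_inv_eq_iff_eq_mul.1 (DFunLike.congr_fun hg (M.T b))
  · rw [← Nat.card_congr (MulAut.congr φ).toEquiv, ← Nat.card_congr φ.toEquiv]
    exact H19.card_aut_fi22
  · let K : Subgroup G := {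
      carrier := {c | c ∈ centralizer {M.w y} ∧ q c * c⁻¹ ∈ gp M.e pU0}
      one_mem' := ⟨one_mem _, by simp⟩
      mul_mem' := fun {a b} ha hb => ⟨mul_mem ha.1 hb.1, by
        simpa [mul_assoc] using mul_mem ha.2 (nrm a ha.1 _ hb.2)⟩
      inv_mem' := fun {a} ha => ⟨inv_mem ha.1, by
        simpa [mul_assoc] using inv_mem (nrm _ (inv_mem ha.1) _ ha.2)⟩ }
    suffices k : gp M.e gs ≤ K from
      (m.1.ge.trans (sup_le k (show gp M.e pU0 ≤ K from fun e he => ⟨le he, zpowers_le.2 yE (qE e he)⟩)) hc).2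
    refine gp_le.2 fun u hu => ⟨?_, ?_⟩
    · exact m.1.le (mem_sup_left (mem_gp hu))
    · obtain ⟨t, ht⟩ := all2_spec (show all2 gs (fun u t => okW 14 u && X22.τ.eqW (xw W u) (appL (xw pU0 t) u))
        [[0], [3], [], [0], [5], []] = true by decide +kernel) u hu
      rw [Bool.and_eq_true] at ht
      rw [hw u ht.1, M.eqW ht.2, M.w_app, mul_inv_cancel_right]
      exact M.xw_mem _ _
  · have s : Sec (gp M.e [y]) ((pL0 ++ pL1).map M.w) 2 :=
      M.sec (M.gp_le_N [[[0]], [[0]], [[0]], [[0]], [[0]], [[0]], [[0]], [[0]], [[0]]] (by decide +kernel))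
        [[], [], [], [], [], [], [], [], []] [[[], [], [], [0], [0], [], [], []], [[], [], [], [0], [], [0], []],
          [[], [], [0], [], [], []], [[], [], [0], [], []], [[], [0], [0], []], [[0], [0], []], [[0], []], [[]], []]
        (by decide +kernel)
    have hE : gp M.e pU0 = closure {c | c ∈ (pL0 ++ pL1).map M.w} ⊔ gp M.e [y] := M.gp_app (pL0 ++ pL1) [y]
    have := s.comm_mem (by norm_num) (hE ▸ inv_mem ha) (hE ▸ inv_mem hb)
    rw [← M.gp_one]
    simpa [mul_assoc, commutatorElement_def] using this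
  · have hZ : gp M.e pU0 ⊓ centralizer (gp M.e pU0 : Set G) = gp M.e pU1 :=
      M.center_le (by norm_num) (psec0 M hM) (by decide +kernel) [([0, 2, 13, 0, 7, 13, 2, 5, 13, 7, 0, 13], [1, 2, 3, 4], 2), ([11, 0, 2, 11, 5, 7, 9, 2, 0, 9, 7, 5, 0], [0, 3, 7], 2), ([9, 3, 11, 0, 9, 4, 10, 0, 11, 4, 3, 9, 0], [1, 2, 3, 5], 2), ([8, 9, 2, 5, 11, 2, 5, 9, 7, 8, 0], [0, 1, 2, 6], 2), ([4, 6, 7, 11, 5, 9, 2, 9, 5, 11], [0, 2], 2), (pc0, [0], 2), (pc3, [3], 2), (pc1, [1], 2)] (by decide +kernel)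
    have dd : M.w [0] * M.w [0] = 1 := by rw [← pow_two]; exact M.powW (by decide +kernel)
    have VE : gp M.e pU1 ≤ gp M.e pU0 := M.gp_le_app _ _
    have t : ∀ x ∈ gp M.e pU1, x ∈ zpowers (M.w y) ∨ x * M.w [0] ∈ zpowers (M.w y) := fun x hx => by
      induction hx using closure_induction with
      | mem x hx =>
        obtain ⟨u, hu, rfl⟩ := hx
        simp only [pU1, pL1, pU2, pL2, pU3, List.mem_append, List.mem_cons, List.not_mem_nil, or_false] at hu
        rcases hu with rfl | rfl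
        · exact Or.inr (dd ▸ one_mem _)
        · exact Or.inl (mem_zpowers _)
      | one => exact Or.inl (one_mem _)
      | mul a b _ hb h1 h2 =>
        have c := dZ b (VE hb)
        rcases h1 with h1 | h1 <;> rcases h2 with h2 | h2 <;> have := mul_mem h1 h2
        · exact Or.inl this
        · exact Or.inr (mul_assoc a b _ ▸ this)
        · exact Or.inr (by rwa [mul_assoc, c, ← mul_assoc])
        · exact Or.inl (by rwa [c, mul_assoc, ← mul_assoc (M.w [0]), dd, one_mul] at this)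
      | inv a ha h1 =>
        refine h1.imp inv_mem fun h1 => ?_
        have := inv_mem h1
        rwa [dZ a (VE ha), mul_inv_rev, inv_eq_of_mul_eq_one_left dd] at this
    refine (t e (hZ.le ⟨he, hz⟩)).resolve_right fun ⟨n, hn⟩ => qd ?_
    have : q (e * M.w [0]) = e * M.w [0] := by rw [← hn]; simp only [map_zpow, qy]
    rwa [map_mul, k, mul_right_inj] at this
  · have N : centralizer {M.w y} ≤ normalizer (gp M.e pU1 : Set G) := m.1.ge.trans (sup_le
      (M.gp_le_N [[[0], [1]], [[0], [1]], [[0], [1]], [[0], [1]], [[0], [1]], [[0, 1], [1]]] (by decide +kernel))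
      ((M.gp_app pL0 pU1).le.trans (psec0 M hM).sup_le))
    refine m.2.2.2.mem hg ((ld M hM).triv _ (N hg) fun c hc => ?_)
    obtain ⟨u, hu, rfl⟩ := List.mem_map.1 hc
    have := k _ (nrm _ (inv_mem hg) _ (inv_mem (M.gp_le_app' pL0 pU1 (mem_gp hu))))
    have y1 : zpowers (M.w y) ≤ gp M.e pU1 := zpowers_le.2 (mem_gp (by decide))
    simpa [mul_assoc] using y1 this

include hM in
theorem dat : ∃ q : MulAut G, Dat (M.w y) (M.w [0]) (gp M.e pU0) q :=
  let ⟨q, qq, hw⟩ := exists_q M hM; ⟨q, dat' M hM qq hw⟩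

end Cfsg.Agent.L1AQ
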