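import Cfsg.Agent.L1.Se0
set_option autoImplicit false
set_option maxRecDepth 100000

namespace Cfsg.Agent.L1Se
open Subgroup Equiv
universe u
variable {G : Type u} [Group G] [Finite G] {ε : W →* G} {σ : G}

theorem pA0_dec : ∀ p : W, p * tE = tE * p → p ^ 5 = 1 → p = 1 := by
  have h3 : ∀ a : Perm (Fin 3), a ^ 5 = 1 → a = 1 := by decide
  have h5 : ∀ b : Perm (Fin 5), b * swap 3 4 = swap 3 4 * b → b ^ 5 = 1 → b = 1 := by decide +kernel
  rintro ⟨a, b⟩ h1 h2
  exact Prod.ext (h3 a (congrArg Prod.fst h2)) (h5 b (congrArg Prod.snd h1) (congrArg Prod.snd h2))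

theorem pA0 (h : SA ε σ eA) (hn : ND ε σ) : False := by
  let c : W := (1, swap 0 1 * swap 1 2 * swap 2 3 * swap 3 4)
  let w : G := ε uE * (σ * ε c * σ⁻¹) * (ε uE)⁻¹
  have h1 : Commute (ε c) (ε eE) := (show Commute c eE from (by decide : c * eE = eE * c)).map ε
  have h2 : ε uE * ε eA * (ε uE)⁻¹ = ε tE := by
    rw [← map_mul, ← map_inv, ← map_mul]; exact congrArg ε (by decide)
  have h3 : Commute w (ε tE) := by
    rw [← h2, ← h.se]
    exact (h1.map (MulAut.conj σ)).map (MulAut.conj (ε uE))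
  have h4 : w ^ 5 = 1 := by
    simp only [w, conj_pow, ← map_pow, show c ^ 5 = 1 by decide, map_one, mul_one, mul_inv_cancel]
  have h5 : w ∈ ε.range := by
    rcases hn w h3 with a | a
    · exact a
    rcases hn (w ^ 2) (h3.pow_left 2) with b | b
    · rw [show w = (w ^ 2) ^ 3 by rw [← pow_mul, show 2 * 3 = 5 + 1 from rfl, pow_succ, h4, one_mul]]
      exact pow_mem b 3
    · rw [show w = (σ * w)⁻¹ * (σ * w ^ 2) by group]
      exact mul_mem (inv_mem a) b
  obtain ⟨p, hp⟩ := h5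
  have h6 := pA0_dec p (h.inj (by rw [map_mul, map_mul, hp]; exact h3)) (h.inj (by rw [map_pow, hp, h4, map_one]))
  rw [h6, map_one, eq_comm] at hp
  have h7 : ε c = 1 := by
    have : ε c = σ⁻¹ * ((ε uE)⁻¹ * w * ε uE) * σ := by simp only [w]; group
    rw [this, hp]; group
  exact absurd (h.inj (h7.trans (map_one ε).symm)) (by decide)

end Cfsg.Agent.L1Se
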